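import Cfsg.Agent.H302.Hen.Semi

/-!
# Freeness of the action of elements of `T` outside `V V^x`
-/

set_option autoImplicit false
set_option linter.unusedSectionVars false
set_option linter.style.haveILetI false

namespace Cfsg.Agent.H302.Hen

open Cfsg Cfsg.FusionSystem Cfsg.Agent.H756.HM Cfsg.Agent.H802

variable {Ω : Type*} [Group Ω]

/-- `C_{Y/X}(f) ≤ [Y/X, f]`, for elementary abelian sections -/
def Free (f : Ω) (X Y : Subgroup Ω) : Prop :=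
  ∀ y ∈ Y, f * y * f⁻¹ * y ∈ X → ∃ u ∈ Y, y * (f * u * f⁻¹ * u) ∈ X

theorem free_conj {f g : Ω} {X Y : Subgroup Ω} (h : Free f X Y) :
    Free (g * f * g⁻¹) (cj g X) (cj g Y) := by
  rintro _ ⟨y, hy, rfl⟩ h1
  have h2 : f * y * f⁻¹ * y ∈ X := by
    have h3 := mem_cj.1 h1
    have h4 : g⁻¹ * (g * f * g⁻¹ * (MulAut.conj g).toMonoidHom y * (g * f * g⁻¹)⁻¹ *
        (MulAut.conj g).toMonoidHom y) * g = f * y * f⁻¹ * y := by
      show g⁻¹ * (g * f * g⁻¹ * (g * y * g⁻¹) * (g * f * g⁻¹)⁻¹ * (g * y * g⁻¹)) * g = _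
      group
    rwa [h4] at h3
  obtain ⟨u, hu, h3⟩ := h y hy h2
  refine ⟨_, ⟨u, hu, rfl⟩, mem_cj.2 ?_⟩
  have h4 : g⁻¹ * ((MulAut.conj g).toMonoidHom y * (g * f * g⁻¹ * (MulAut.conj g).toMonoidHom u *
      (g * f * g⁻¹)⁻¹ * (MulAut.conj g).toMonoidHom u)) * g = y * (f * u * f⁻¹ * u) := by
    show g⁻¹ * (g * y * g⁻¹ * (g * f * g⁻¹ * (g * u * g⁻¹) * (g * f * g⁻¹)⁻¹ * (g * u * g⁻¹))) * g = _
    group
  rw [h4]
  exact h3

section
variable {S : Subgroup Ω} [Finite S] {F : FusionSystem S} {K : Type} [Field K] [Fintype K]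
  {V T : Subgroup Ω} {x : Ω} {c : Conf F K V T x}

theorem cj_mono {A B : Subgroup Ω} (x : Ω) (h : A ≤ B) : cj x A ≤ cj x B := Subgroup.map_mono h

theorem cj_T0 (c : Conf F K V T x) : cj x (V ⊔ cj x V) = V ⊔ cj x V := by
  have h1 : cj x (V ⊔ cj x V) = cj x V ⊔ cj x (cj x V) := Subgroup.map_sup _ _ _
  rw [h1, cj_cj c, sup_comm]

theorem cj_Z (c : Conf F K V T x) : cj x (V ⊓ cj x V) = V ⊓ cj x V := by
  have h1 : cj x (V ⊓ cj x V) = cj x V ⊓ cj x (cj x V) := Subgroup.map_inf _ _ _ (MulAut.conj x).injective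
  rw [h1, cj_cj c, inf_comm]

theorem T0_le (c : Conf F K V T x) : V ⊔ cj x V ≤ T := sup_le (V_le_T c) (Vx_le_T c)

/-- elements of `T₀ = V V^x` centralize `Z = V ∩ V^x` -/
theorem Z_comm (c : Conf F K V T x) {g z : Ω} (hg : g ∈ V ⊔ cj x V) (hz : z ∈ V ⊓ cj x V) : g * z = z * g := by
  obtain ⟨u, hu, a, ha, rfl⟩ := (mem_sup_norm ((Vx_le_T c).trans (T_le_norm c))).1 hg
  rw [mul_assoc, Vx_comm c a ha z hz.2, ← mul_assoc, V_comm c u hu z hz.1, mul_assoc]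

theorem out_conj {c : Conf F K V T x} {f : Ω} (hf : f ∈ T) (hf0 : f ∉ V ⊔ cj x V) :
    x * f * x⁻¹ ∈ T ∧ x * f * x⁻¹ ∉ V ⊔ cj x V := by
  refine ⟨conj_mem_of_norm c.x_nor hf, fun h => hf0 ?_⟩
  rw [← cj_T0 c, mem_cj] at h
  have : x⁻¹ * (x * f * x⁻¹) * x = f := by group
  rwa [this] at h

theorem out_conj' {c : Conf F K V T x} {f : Ω} (hf : f ∈ T) (hf0 : f ∉ V ⊔ cj x V) :
    x⁻¹ * f * x ∈ T ∧ x⁻¹ * f * x ∉ V ⊔ cj x V := by
  refine ⟨conj_mem_of_norm' c.x_nor hf, fun h => hf0 ?_⟩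
  have h1 := conj_mem_cj (x := x) h
  rw [cj_T0 c] at h1
  have : x * (x⁻¹ * f * x) * x⁻¹ = f := by group
  rwa [this] at h1

theorem sq_conj' {c : Conf F K V T x} {f : Ω} (hf2 : f ^ 2 ∈ V ⊔ cj x V) :
    (x⁻¹ * f * x) ^ 2 ∈ V ⊔ cj x V := by
  rw [← cj_T0 c, mem_cj] at hf2
  have : (x⁻¹ * f * x) ^ 2 = x⁻¹ * f ^ 2 * x := by
    rw [pow_two, pow_two]
    group
  rwa [this]

theorem exists_sig (hS : IsPGroup 2 S) (d : Nrm c) (typ : fixS V c.E = ⊥ ∨ comS V c.E = V) {f : Ω} (hf : f ∈ T)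
    (hf0 : f ∉ V ⊔ cj x V) (hf2 : f ^ 2 ∈ V ⊔ cj x V) :
    ∃ (σ : K →+* K) (a b e : K), a ≠ 0 ∧ e ≠ 0 ∧ Semi d f σ a b e ∧ (∃ r, σ r ≠ r) ∧ ∀ r, σ (σ r) = r := by
  obtain ⟨σ, a, b, e, ha, he, h⟩ := exists_semi d hf
  refine ⟨σ, a, b, e, ha, he, h, ?_, sigma_sq d hf h hf2⟩
  by_contra hcon
  push Not at hcon
  exact hf0 (mem_T0_of_lin hS d typ hf h hcon)

theorem P_mul4 (d : Nrm c) {f y u : Ω} (hf : f ∈ T) (hy : y ∈ V) (hu : u ∈ V) :
    d.P (y * (f * u * f⁻¹ * u)) = d.P y + (d.P (f * u * f⁻¹) + d.P u) := by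
  rw [d.P_mul _ hy _ (V.mul_mem (conjV c hf hu) hu), d.P_mul _ (conjV c hf hu) _ hu]

theorem free_ZV (hS : IsPGroup 2 S) (d : Nrm c) (typ : fixS V c.E = ⊥ ∨ comS V c.E = V) {f : Ω} (hf : f ∈ T)
    (hf0 : f ∉ V ⊔ cj x V) (hf2 : f ^ 2 ∈ V ⊔ cj x V) : Free f (V ⊓ cj x V) V := by
  haveI := charP_two c
  obtain ⟨σ, a, b, e, ha, he, h, h1, h2⟩ := exists_sig hS d typ hf hf0 hf2
  intro y hy hy2
  have h3 := (d.P_Z _ hy2.1).2 hy2.2
  rw [d.P_mul _ (conjV c hf hy) _ hy] at h3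
  have h4 : σ (d.P y 1) * e = d.P y 1 := by
    rw [← (h y hy).2]
    exact (CharTwo.add_eq_zero).1 h3
  obtain ⟨r, hr⟩ := one_dim σ h1 h2 e (d.P y 1) h4
  obtain ⟨u, hu, hu1⟩ := d.P_surj ![0, r]
  have hm : y * (f * u * f⁻¹ * u) ∈ V := V.mul_mem hy (V.mul_mem (conjV c hf hu) hu)
  refine ⟨u, hu, hm, (d.P_Z _ hm).1 ?_⟩
  rw [P_mul4 d hf hy hu]
  show d.P y 1 + (d.P (f * u * f⁻¹) 1 + d.P u 1) = 0
  rw [(h u hu).2]
  have h5 : d.P u 1 = r := by rw [hu1]; simp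
  rw [h5, hr]
  exact CharTwo.add_self_eq_zero _

theorem free_DZ (hS : IsPGroup 2 S) (d : Nrm c) (typ : fixS V c.E = ⊥ ∨ comS V c.E = V) {f : Ω} (hf : f ∈ T)
    (hf0 : f ∉ V ⊔ cj x V) (hf2 : f ^ 2 ∈ V ⊔ cj x V) : Free f (fixS V c.E) (V ⊓ cj x V) := by
  haveI := charP_two c
  obtain ⟨σ, a, b, e, ha, he, h, h1, h2⟩ := exists_sig hS d typ hf hf0 hf2
  intro y hy hy2
  have hy0 : d.P y 1 = 0 := (d.P_Z _ hy.1).2 hy.2
  have h3 := (d.P_ker _ (fixS_le _ hy2)).2 hy2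
  rw [d.P_mul _ (conjV c hf hy.1) _ hy.1] at h3
  have h4 : σ (d.P y 0) * a = d.P y 0 := by
    have h5 := (h y hy.1).1
    rw [hy0, map_zero, zero_mul, add_zero] at h5
    rw [← h5]
    exact (CharTwo.add_eq_zero).1 (congrFun h3 0)
  obtain ⟨r, hr⟩ := one_dim σ h1 h2 a (d.P y 0) h4
  obtain ⟨u, hu, hu1⟩ := d.P_surj ![r, 0]
  have huZ : u ∈ V ⊓ cj x V := ⟨hu, (d.P_Z _ hu).1 (by rw [hu1]; simp)⟩
  have hm : y * (f * u * f⁻¹ * u) ∈ V := V.mul_mem hy.1 (V.mul_mem (conjV c hf hu) hu)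
  refine ⟨u, huZ, (d.P_ker _ hm).1 ?_⟩
  rw [P_mul4 d hf hy.1 hu]
  have h5 : d.P u 0 = r := by rw [hu1]; simp
  have h6 : d.P u 1 = 0 := by rw [hu1]; simp
  ext i; fin_cases i
  · show d.P y 0 + (d.P (f * u * f⁻¹) 0 + d.P u 0) = 0
    rw [(h u hu).1, h6, map_zero, zero_mul, add_zero, h5, hr]
    exact CharTwo.add_self_eq_zero _
  · show d.P y 1 + (d.P (f * u * f⁻¹) 1 + d.P u 1) = 0
    rw [(h u hu).2, h6, hy0, map_zero, zero_mul, add_zero, add_zero]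

/-- `Z = D D^x` if `|D| = q` -/
theorem Z_eq (d : Nrm c) (hD : Nat.card (fixS V c.E) = Fintype.card K) {z : Ω} (hz : z ∈ V ⊓ cj x V) :
    ∃ u ∈ fixS V c.E, ∃ v ∈ cj x (fixS V c.E), u * v = z := by
  have hDZ := D_le_Z d
  have hDZ' : cj x (fixS V c.E) ≤ V ⊓ cj x V := by
    have := cj_mono x hDZ
    rwa [cj_Z c] at this
  have hfinZ : Finite (V ⊓ cj x V : Subgroup Ω) := finite_of_le (S := S) (inf_le_left.trans c.V_le)
  let f : fixS V c.E × cj x (fixS V c.E) → (V ⊓ cj x V : Subgroup Ω) :=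
    fun p => ⟨p.1 * p.2, (V ⊓ cj x V).mul_mem (hDZ p.1.2) (hDZ' p.2.2)⟩
  have hf : Function.Injective f := by
    rintro ⟨a, b⟩ ⟨a', b'⟩ h
    have h1 : (a : Ω) * b = a' * b' := congrArg Subtype.val h
    have h2 : (a' : Ω)⁻¹ * a = b' * (b : Ω)⁻¹ := by
      rw [inv_mul_eq_iff_eq_mul, ← mul_assoc, ← h1, mul_inv_cancel_right]
    have h3 : (a' : Ω)⁻¹ * a ∈ fixS V c.E ⊓ cj x (fixS V c.E) := by
      refine ⟨(fixS V c.E).mul_mem ((fixS V c.E).inv_mem a'.2) a.2, ?_⟩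
      rw [h2]
      exact (cj x (fixS V c.E)).mul_mem b'.2 ((cj x (fixS V c.E)).inv_mem b.2)
    rw [c.DD, Subgroup.mem_bot] at h3
    have h4 : (a' : Ω) = a := inv_mul_eq_one.1 h3
    rw [h3] at h2
    have h5 : (b' : Ω) = b := mul_inv_eq_one.1 h2.symm
    exact Prod.ext (Subtype.ext h4.symm) (Subtype.ext h5.symm)
  have hcard : Nat.card (V ⊓ cj x V : Subgroup Ω) = Fintype.card K * Fintype.card K := by
    have h1 := card_Z c
    have h2 := card_D c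
    rw [hD] at h2
    rw [h2] at h1
    exact (Nat.eq_of_mul_eq_mul_left Fintype.card_pos h1).symm
  have hsurj : Function.Surjective f := by
    apply ((Function.Injective.bijective_of_nat_card_le hf ?_)).2
    rw [hcard, Nat.card_prod, card_cj, hD]
  obtain ⟨⟨u, v⟩, h⟩ := hsurj ⟨z, hz⟩
  exact ⟨u, u.2, v, v.2, congrArg Subtype.val h⟩

theorem sq_cent (c : Conf F K V T x) {f z : Ω} (hf2 : f ^ 2 ∈ V ⊔ cj x V) (hz : z ∈ V ⊓ cj x V) :
    f * (f * z * f⁻¹) * f⁻¹ = z := by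
  have h1 : f * (f * z * f⁻¹) * f⁻¹ = f ^ 2 * z * (f ^ 2)⁻¹ := by
    rw [pow_two]
    group
  rw [h1, Z_comm c hf2 hz, mul_inv_cancel_right]

theorem free_1Z (hS : IsPGroup 2 S) (d : Nrm c)
    (typ : fixS V c.E = ⊥ ∨ (Nat.card (fixS V c.E) = Fintype.card K ∧ comS V c.E = V)) {f : Ω} (hf : f ∈ T)
    (hf0 : f ∉ V ⊔ cj x V) (hf2 : f ^ 2 ∈ V ⊔ cj x V) : Free f ⊥ (V ⊓ cj x V) := by
  have typ' : fixS V c.E = ⊥ ∨ comS V c.E = V := typ.imp id And.right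
  have h1 := free_DZ hS d typ' hf hf0 hf2
  rcases typ with hD | ⟨hD, -⟩
  · rwa [hD] at h1
  · obtain ⟨hf', hf0'⟩ := out_conj' (c := c) hf hf0
    have h2 := free_conj (g := x) (free_DZ hS d typ' hf' hf0' (sq_conj' (c := c) hf2))
    have h3 : x * (x⁻¹ * f * x) * x⁻¹ = f := by group
    rw [h3, cj_Z c] at h2
    intro y hy hy2
    obtain ⟨u, hu, hu1⟩ := h1 y hy (by
      rw [Subgroup.mem_bot.1 hy2]
      exact Subgroup.one_mem _)
    set d1 := y * (f * u * f⁻¹ * u) with hd1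
    have hyi : y⁻¹ = y := V_inv c y hy.1
    have hyf : f * y * f⁻¹ = y := by
      have h4 := Subgroup.mem_bot.1 hy2
      exact (eq_inv_of_mul_eq_one_left h4).trans hyi
    have hfu : f * (f * u * f⁻¹ * u) * f⁻¹ = f * u * f⁻¹ * u := by
      have h4 : f * (f * u * f⁻¹ * u) * f⁻¹ = (f * (f * u * f⁻¹) * f⁻¹) * (f * u * f⁻¹) := by group
      rw [h4, sq_cent c hf2 hu]
      exact V_comm c u hu.1 _ (conjV c hf hu.1)
    have hd1f : f * d1 * f⁻¹ = d1 := by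
      have h4 : f * d1 * f⁻¹ = (f * y * f⁻¹) * (f * (f * u * f⁻¹ * u) * f⁻¹) := by
        rw [hd1]
        group
      rw [h4, hyf, hfu]
    have hd1Z : d1 ∈ V ⊓ cj x V := D_le_Z d hu1
    have hd1sq : d1 * d1 = 1 := by
      rw [← pow_two]
      exact c.el d1 hd1Z.1
    obtain ⟨u2, hu2, hu3⟩ := h2 d1 hd1Z (by
      rw [hd1f, hd1sq]
      exact Subgroup.one_mem _)
    obtain ⟨d2, hd2, d3, hd3, rfl⟩ := Z_eq d hD hu2
    have hd2Z := D_le_Z d hd2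
    have hd3Z : d3 ∈ V ⊓ cj x V := by
      have := cj_mono x (D_le_Z d) hd3
      rwa [cj_Z c] at this
    have hDxconj : f * d3 * f⁻¹ ∈ cj x (fixS V c.E) := by
      rw [mem_cj] at hd3 ⊢
      have := D_conj c hf' hd3
      have h4 : x⁻¹ * f * x * (x⁻¹ * d3 * x) * (x⁻¹ * f * x)⁻¹ = x⁻¹ * (f * d3 * f⁻¹) * x := by group
      rwa [h4] at this
    have h4 : f * (d2 * d3) * f⁻¹ * (d2 * d3) = (f * d2 * f⁻¹ * d2) * (f * d3 * f⁻¹ * d3) := by
      have h5 : f * (d2 * d3) * f⁻¹ * (d2 * d3) = (f * d2 * f⁻¹) * ((f * d3 * f⁻¹) * d2) * d3 := by group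
      rw [h5, V_comm c _ (conjV c hf hd3Z.1) d2 hd2Z.1]
      group
    rw [h4] at hu3
    have hp3 : f * d3 * f⁻¹ * d3 ∈ cj x (fixS V c.E) := (cj x (fixS V c.E)).mul_mem hDxconj hd3
    have h5 : d1 * (f * d2 * f⁻¹ * d2) ∈ cj x (fixS V c.E) := by
      rw [← mul_assoc] at hu3
      exact ((cj x (fixS V c.E)).mul_mem_cancel_right hp3).1 hu3
    have h6 : d1 * (f * d2 * f⁻¹ * d2) ∈ fixS V c.E :=
      (fixS V c.E).mul_mem hu1 ((fixS V c.E).mul_mem (D_conj c hf hd2) hd2)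
    have h7 : d1 * (f * d2 * f⁻¹ * d2) ∈ fixS V c.E ⊓ cj x (fixS V c.E) := ⟨h6, h5⟩
    rw [c.DD, Subgroup.mem_bot] at h7
    refine ⟨u * d2, (V ⊓ cj x V).mul_mem hu hd2Z, Subgroup.mem_bot.2 ?_⟩
    have h8 : f * (u * d2) * f⁻¹ * (u * d2) = (f * u * f⁻¹ * u) * (f * d2 * f⁻¹ * d2) := by
      have h9 : f * (u * d2) * f⁻¹ * (u * d2) = (f * u * f⁻¹) * ((f * d2 * f⁻¹) * u) * d2 := by group
      rw [h9, V_comm c _ (conjV c hf hd2Z.1) u hu.1]
      group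
    rw [h8, ← mul_assoc, ← hd1]
    exact h7

/-- an involution in `T` outside `V V^x` -/
theorem exists_invol (hS : IsPGroup 2 S) (d : Nrm c)
    (typ : fixS V c.E = ⊥ ∨ (Nat.card (fixS V c.E) = Fintype.card K ∧ comS V c.E = V))
    (hT : T ≠ V ⊔ cj x V) : ∃ f ∈ T, f ∉ V ⊔ cj x V ∧ f ^ 2 = 1 := by
  classical
  have typ' : fixS V c.E = ⊥ ∨ comS V c.E = V := typ.imp id And.right
  -- an element with square in T₀
  obtain ⟨f0, hf0, hf0n, hf02⟩ : ∃ f ∈ T, f ∉ V ⊔ cj x V ∧ f ^ 2 ∈ V ⊔ cj x V := by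
    have hex : ∃ t ∈ T, t ∉ V ⊔ cj x V := by
      by_contra hcon
      push Not at hcon
      exact hT (le_antisymm hcon (T0_le c))
    obtain ⟨t, ht, ht0⟩ := hex
    obtain ⟨k, hk⟩ := hS ⟨t, T_le_S c ht⟩
    have hk' : t ^ 2 ^ k = 1 := by
      have := congrArg Subtype.val hk
      simpa using this
    have hexk : ∃ k : ℕ, t ^ 2 ^ k ∈ V ⊔ cj x V := ⟨k, by rw [hk']; exact Subgroup.one_mem _⟩
    have h1 := Nat.find_spec hexk
    have h2 : Nat.find hexk ≠ 0 := by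
      intro h0
      rw [h0] at h1
      simp at h1
      exact ht0 h1
    obtain ⟨m, hm⟩ := Nat.exists_eq_succ_of_ne_zero h2
    have h3 := Nat.find_min hexk (m := m) (by omega)
    refine ⟨t ^ 2 ^ m, T.pow_mem ht _, h3, ?_⟩
    rw [← pow_mul, ← pow_succ, ← Nat.succ_eq_add_one, ← hm]
    exact h1
  -- an element with square in Z
  obtain ⟨f1, hf1, hf1n, hf12⟩ : ∃ f ∈ T, f ∉ V ⊔ cj x V ∧ f ^ 2 ∈ V ⊓ cj x V := by
    have hf02' := hf02
    obtain ⟨v, hv, a, ha, hva⟩ := (mem_sup_norm ((Vx_le_T c).trans (T_le_norm c))).1 hf02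
    have hc1 : (f0 * v * f0⁻¹) * (f0 * a * f0⁻¹) = v * a := by
      have : (f0 * v * f0⁻¹) * (f0 * a * f0⁻¹) = f0 * (v * a) * f0⁻¹ := by group
      rw [this, hva, pow_two]
      group
    have hai : a⁻¹ = a := by
      obtain ⟨w, hw, rfl⟩ := ha
      rw [← map_inv, V_inv c w hw]
    have hc2 : v⁻¹ * (f0 * v * f0⁻¹) = a * (f0 * a * f0⁻¹)⁻¹ := by
      rw [inv_mul_eq_iff_eq_mul, ← mul_assoc, ← hc1, mul_inv_cancel_right]
    have hz1 : f0 * v * f0⁻¹ * v ∈ V ⊓ cj x V := by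
      have h1 : f0 * v * f0⁻¹ * v = v⁻¹ * (f0 * v * f0⁻¹) := by
        rw [V_inv c v hv]
        exact V_comm c _ (conjV c hf0 hv) v hv
      refine ⟨V.mul_mem (conjV c hf0 hv) hv, ?_⟩
      rw [h1, hc2]
      exact (cj x V).mul_mem ha ((cj x V).inv_mem (conjVx c hf0 ha))
    have hz2 : f0 * a * f0⁻¹ * a ∈ V ⊓ cj x V := by
      refine ⟨?_, (cj x V).mul_mem (conjVx c hf0 ha) ha⟩
      have h1 : f0 * a * f0⁻¹ * a = (v⁻¹ * (f0 * v * f0⁻¹))⁻¹ := by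
        rw [hc2, mul_inv_rev, inv_inv, hai]
      rw [h1]
      exact V.inv_mem (V.mul_mem (V.inv_mem hv) (conjV c hf0 hv))
    obtain ⟨u, hu, hu1⟩ := free_ZV hS d typ' hf0 hf0n hf02' v hv hz1
    obtain ⟨hf', hf0'⟩ := out_conj' (c := c) hf0 hf0n
    have h2 := free_conj (g := x) (free_ZV hS d typ' hf' hf0' (sq_conj' (c := c) hf02'))
    have h3 : x * (x⁻¹ * f0 * x) * x⁻¹ = f0 := by group
    rw [h3, cj_Z c] at h2
    obtain ⟨u', hu', hu'1⟩ := h2 a ha hz2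
    refine ⟨u * u' * f0, T.mul_mem (T.mul_mem (V_le_T c hu) (Vx_le_T c hu')) hf0, ?_, ?_⟩
    · intro h
      apply hf0n
      exact ((V ⊔ cj x V).mul_mem_cancel_left
        (Subgroup.mul_mem_sup hu hu')).1 h
    · -- the square
      set p := f0 * u * f0⁻¹ with hp
      set r := f0 * u' * f0⁻¹ with hr
      have hpV : p ∈ V := conjV c hf0 hu
      have hrV : r ∈ cj x V := conjVx c hf0 hu'
      have hsq : (u * u' * f0) ^ 2 = u * u' * p * r * v * a := by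
        rw [pow_two]
        have h4 : u * u' * f0 * (u * u' * f0) = u * u' * p * r * f0 ^ 2 := by
          rw [hp, hr, pow_two]
          group
        rw [h4, ← hva]
        group
      -- commutators lie in Z
      have hcomm : ∀ s ∈ cj x V, ∀ w ∈ V, ∃ k ∈ V ⊓ cj x V, s * w = w * s * k := by
        intro s hs w hw
        refine ⟨s⁻¹ * w⁻¹ * s * w, ⟨?_, ?_⟩, by group⟩
        · have h5 : s⁻¹ * w⁻¹ * s * w = (s⁻¹ * w⁻¹ * s⁻¹⁻¹) * w := by group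
          rw [h5]
          exact V.mul_mem (conjV c (T.inv_mem (Vx_le_T c hs)) (V.inv_mem hw)) hw
        · have h5 : s⁻¹ * w⁻¹ * s * w = s⁻¹ * (w⁻¹ * s * w⁻¹⁻¹) := by group
          rw [h5]
          exact (cj x V).mul_mem ((cj x V).inv_mem hs) (conjVx c (T.inv_mem (V_le_T c hw)) hs)
      obtain ⟨k1, hk1, he1⟩ := hcomm u' hu' p hpV
      obtain ⟨k2, hk2, he2⟩ := hcomm (u' * r) ((cj x V).mul_mem hu' hrV) v hv
      have haT : r * v * a ∈ V ⊔ cj x V :=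
        (V ⊔ cj x V).mul_mem ((V ⊔ cj x V).mul_mem (Subgroup.mem_sup_right hrV) (Subgroup.mem_sup_left hv))
          (Subgroup.mem_sup_right ha)
      have h5 : u * u' * p * r * v * a = (u * p * v) * (u' * r * a) * k2 * k1 := by
        calc u * u' * p * r * v * a = u * (u' * p) * r * v * a := by group
          _ = u * (p * u' * k1) * r * v * a := by rw [he1]
          _ = u * p * u' * (k1 * (r * v * a)) := by group
          _ = u * p * u' * ((r * v * a) * k1) := by rw [Z_comm c haT hk1]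
          _ = u * p * ((u' * r) * v) * a * k1 := by group
          _ = u * p * (v * (u' * r) * k2) * a * k1 := by rw [he2]
          _ = u * p * v * (u' * r) * (k2 * a) * k1 := by group
          _ = u * p * v * (u' * r) * (a * k2) * k1 := by
              rw [Z_comm c (Subgroup.mem_sup_right ha) hk2]
          _ = (u * p * v) * (u' * r * a) * k2 * k1 := by group
      have h6 : u * p * v = v * (f0 * u * f0⁻¹ * u) := by
        rw [← hp, V_comm c u hu p hpV, V_comm c _ (V.mul_mem hpV hu) v hv]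
      have h7 : u' * r * a = a * (f0 * u' * f0⁻¹ * u') := by
        rw [← hr, Vx_comm c u' hu' r hrV, Vx_comm c _ ((cj x V).mul_mem hrV hu') a ha]
      rw [hsq, h5, h6, h7]
      exact (V ⊓ cj x V).mul_mem ((V ⊓ cj x V).mul_mem ((V ⊓ cj x V).mul_mem hu1 hu'1) hk2) hk1
  -- an involution
  have hf12' : f1 ^ 2 ∈ V ⊔ cj x V := Subgroup.mem_sup_left hf12.1
  have hy := free_1Z hS d typ hf1 hf1n hf12' (f1 ^ 2) hf12 (by
    have h1 : f1 * f1 ^ 2 * f1⁻¹ = f1 ^ 2 := by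
      rw [pow_two]
      group
    rw [h1, ← pow_two, c.el _ hf12.1]
    exact Subgroup.one_mem _)
  obtain ⟨u, hu, hu1⟩ := hy
  refine ⟨u * f1, T.mul_mem (V_le_T c hu.1) hf1, ?_, ?_⟩
  · intro h
    exact hf1n (((V ⊔ cj x V).mul_mem_cancel_left (Subgroup.mem_sup_left hu.1)).1 h)
  · have h1 := Subgroup.mem_bot.1 hu1
    have h2 : (u * f1) ^ 2 = u * (f1 * u * f1⁻¹) * f1 ^ 2 := by
      rw [pow_two, pow_two]
      group
    rw [h2, V_comm c u hu.1 _ (conjV c hf1 hu.1), V_comm c _ (V.mul_mem (conjV c hf1 hu.1) hu.1) _ hf12.1]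
    exact h1

end

end Cfsg.Agent.H302.Hen
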