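import Mathlib

/-!
# Linear algebra for `SL₂(K)` acting on `K²` (S5175, T10)
-/

set_option autoImplicit false

namespace Cfsg.Agent.H302.Hen

open Matrix

variable {K : Type*} [Field K]

/-- the action on column vectors -/
abbrev act (M : Matrix.SpecialLinearGroup (Fin 2) K) (u : Fin 2 → K) : Fin 2 → K :=
  (M : Matrix (Fin 2) (Fin 2) K).mulVec u

theorem act_apply_zero (M : Matrix.SpecialLinearGroup (Fin 2) K) (u : Fin 2 → K) :
    act M u 0 = (M : Matrix (Fin 2) (Fin 2) K) 0 0 * u 0 + (M : Matrix (Fin 2) (Fin 2) K) 0 1 * u 1 := by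
  simp [act, Matrix.mulVec, dotProduct, Fin.sum_univ_two]

theorem act_apply_one (M : Matrix.SpecialLinearGroup (Fin 2) K) (u : Fin 2 → K) :
    act M u 1 = (M : Matrix (Fin 2) (Fin 2) K) 1 0 * u 0 + (M : Matrix (Fin 2) (Fin 2) K) 1 1 * u 1 := by
  simp [act, Matrix.mulVec, dotProduct, Fin.sum_univ_two]

theorem act_mul (M N : Matrix.SpecialLinearGroup (Fin 2) K) (u : Fin 2 → K) :
    act (M * N) u = act M (act N u) := by
  show ((M * N : Matrix.SpecialLinearGroup (Fin 2) K) : Matrix (Fin 2) (Fin 2) K).mulVec u = _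
  rw [Matrix.SpecialLinearGroup.coe_mul, ← Matrix.mulVec_mulVec]

theorem act_one (u : Fin 2 → K) : act (1 : Matrix.SpecialLinearGroup (Fin 2) K) u = u := by
  simp [act]

theorem act_add (M : Matrix.SpecialLinearGroup (Fin 2) K) (u v : Fin 2 → K) :
    act M (u + v) = act M u + act M v := Matrix.mulVec_add _ _ _

theorem act_smul (M : Matrix.SpecialLinearGroup (Fin 2) K) (c : K) (v : Fin 2 → K) :
    act M (c • v) = c • act M v := Matrix.mulVec_smul _ _ _

theorem act_zero (M : Matrix.SpecialLinearGroup (Fin 2) K) : act M 0 = 0 := Matrix.mulVec_zero _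

/-- upper unitriangular -/
def U (c : K) : Matrix.SpecialLinearGroup (Fin 2) K := ⟨!![1, c; 0, 1], by simp [Matrix.det_fin_two_of]⟩

/-- lower unitriangular -/
def L (c : K) : Matrix.SpecialLinearGroup (Fin 2) K := ⟨!![1, 0; c, 1], by simp [Matrix.det_fin_two_of]⟩

theorem act_U (c : K) (u : Fin 2 → K) : act (U c) u = ![u 0 + c * u 1, u 1] := by
  ext i
  fin_cases i
  · rw [show ((⟨0, by omega⟩ : Fin 2)) = 0 from rfl, act_apply_zero]
    simp [U]
  · rw [show ((⟨1, by omega⟩ : Fin 2)) = 1 from rfl, act_apply_one]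
    simp [U]

theorem act_L (c : K) (u : Fin 2 → K) : act (L c) u = ![u 0, c * u 0 + u 1] := by
  ext i
  fin_cases i
  · rw [show ((⟨0, by omega⟩ : Fin 2)) = 0 from rfl, act_apply_zero]
    simp [L]
  · rw [show ((⟨1, by omega⟩ : Fin 2)) = 1 from rfl, act_apply_one]
    simp [L]

theorem act_injective {M N : Matrix.SpecialLinearGroup (Fin 2) K} (h : ∀ u, act M u = act N u) :
    M = N := by
  apply Subtype.ext
  ext i j
  have h1 := h (Pi.single j 1)
  have h2 := congrFun h1 i
  simpa [act] using h2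

/-- two elements of `SL₂(K)` agreeing on two independent vectors `(p, 0)` and `(r, s)` are equal -/
theorem eq_of_agree {M N : Matrix.SpecialLinearGroup (Fin 2) K} {w v : Fin 2 → K} (hw0 : w 0 ≠ 0)
    (hw1 : w 1 = 0) (hv : v 1 ≠ 0) (h1 : act M w = act N w) (h2 : act M v = act N v) : M = N := by
  apply act_injective
  intro u
  have hu : u = ((u 0 - u 1 / v 1 * v 0) / w 0) • w + (u 1 / v 1) • v := by
    ext i
    fin_cases i
    · simp
      field_simp
      ring
    · simp [hw1, hv]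
  rw [hu, act_add, act_add, act_smul, act_smul, act_smul, act_smul, h1, h2]

/-- the swap of two vectors in characteristic two -/
theorem exists_swap [CharP K 2] {w v : Fin 2 → K} (hw0 : w 0 ≠ 0)
    (hw1 : w 1 = 0) (hv : v 1 ≠ 0) :
    ∃ M : Matrix.SpecialLinearGroup (Fin 2) K, act M w = v ∧ act M v = w := by
  have h2 : (2 : K) = 0 := CharP.cast_eq_zero K 2
  have hneg : ∀ a : K, -a = a := fun a => by
    have h3 : a + a = 0 := by rw [← two_mul, h2, zero_mul]
    exact neg_eq_of_add_eq_zero_left h3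
  have hdet : (!![v 0 / w 0, (w 0 - v 0 / w 0 * v 0) / v 1; v 1 / w 0, (- (v 1 / w 0 * v 0)) / v 1] :
      Matrix (Fin 2) (Fin 2) K).det = 1 := by
    rw [Matrix.det_fin_two_of]
    field_simp
    linear_combination (-(w 0 ^ 2)) * h2
  have e0 := act_apply_zero ⟨_, hdet⟩ w
  have e1 := act_apply_one ⟨_, hdet⟩ w
  have e2 := act_apply_zero ⟨_, hdet⟩ v
  have e3 := act_apply_one ⟨_, hdet⟩ v
  refine ⟨⟨_, hdet⟩, ?_, ?_⟩
  · ext i
    fin_cases i
    · refine e0.trans ?_
      simp [hw1]
      field_simp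
    · refine e1.trans ?_
      simp [hw1]
      field_simp
  · ext i
    fin_cases i
    · refine e2.trans ?_
      simp
      field_simp
      ring
    · refine e3.trans ?_
      simp [hw1]
      field_simp
      ring

/-- an additive map commuting with `SL₂(K)` is a scalar -/
theorem scalar_of_commute (φ : (Fin 2 → K) → (Fin 2 → K)) (hadd : ∀ u v, φ (u + v) = φ u + φ v)
    (hc : ∀ (M : Matrix.SpecialLinearGroup (Fin 2) K) u, φ (act M u) = act M (φ u)) :
    ∃ c : K, ∀ u, φ u = c • u := by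
  have h1 : ∀ b : K, φ ![b, 0] = ![b * φ ![0, 1] 1, 0] := by
    intro b
    have h2 := hc (U b) ![0, 1]
    rw [act_U, act_U] at h2
    have h3 : (![(![0, 1] : Fin 2 → K) 0 + b * (![0, 1] : Fin 2 → K) 1, (![0, 1] : Fin 2 → K) 1] : Fin 2 → K) =
        ![b, 0] + ![0, 1] := by
      ext i; fin_cases i <;> simp
    rw [h3, hadd] at h2
    have h4 : φ ![b, 0] = ![φ ![0, 1] 0 + b * φ ![0, 1] 1, φ ![0, 1] 1] - φ ![0, 1] :=
      eq_sub_of_add_eq h2
    rw [h4]
    ext i; fin_cases i <;> simp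
  have h2 : ∀ b : K, φ ![0, b] = ![0, b * φ ![1, 0] 0] := by
    intro b
    have h2 := hc (L b) ![1, 0]
    rw [act_L, act_L] at h2
    have h3 : (![(![1, 0] : Fin 2 → K) 0, b * (![1, 0] : Fin 2 → K) 0 + (![1, 0] : Fin 2 → K) 1] : Fin 2 → K) =
        ![0, b] + ![1, 0] := by
      ext i; fin_cases i <;> simp
    rw [h3, hadd] at h2
    have h4 : φ ![0, b] = ![φ ![1, 0] 0, b * φ ![1, 0] 0 + φ ![1, 0] 1] - φ ![1, 0] :=
      eq_sub_of_add_eq h2
    rw [h4]
    ext i; fin_cases i <;> simp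
  refine ⟨φ ![1, 0] 0, fun u => ?_⟩
  have h3 : φ ![0, 1] 1 = φ ![1, 0] 0 := by
    have h4 := congrFun (h1 1) 0
    simp at h4
    exact h4.symm
  have hu : u = ![u 0, 0] + ![0, u 1] := by
    ext i; fin_cases i <;> simp
  conv_lhs => rw [hu]
  rw [hadd, h1 (u 0), h2 (u 1), h3]
  ext i; fin_cases i
  · simp
    ring
  · simp
    ring

/-- an additive automorphism normalizing `SL₂(K)` is semilinear -/
theorem semilinear (φ : (Fin 2 → K) ≃+ (Fin 2 → K))
    (h : ∀ M' : Matrix.SpecialLinearGroup (Fin 2) K, ∃ M : Matrix.SpecialLinearGroup (Fin 2) K,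
      ∀ u, φ (act M u) = act M' (φ u)) :
    ∃ σ : K →+* K, ∀ (c : K) u, φ (c • u) = σ c • φ u := by
  have key : ∀ c : K, ∃ s : K, ∀ u, φ (c • u) = s • φ u := by
    intro c
    obtain ⟨s, hs⟩ := scalar_of_commute (fun u => φ (c • φ.symm u))
      (fun u v => by simp only [map_add, smul_add])
      (fun M' u => by
        obtain ⟨M, hM⟩ := h M'
        have h1 := hM (φ.symm u)
        rw [AddEquiv.apply_symm_apply] at h1
        have h2 : φ.symm (act M' u) = act M (φ.symm u) := by
          rw [← h1, AddEquiv.symm_apply_apply]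
        show φ (c • φ.symm (act M' u)) = act M' (φ (c • φ.symm u))
        rw [h2, ← hM (c • φ.symm u), act_smul])
    refine ⟨s, fun u => ?_⟩
    have h1 := hs (φ u)
    simp only [AddEquiv.symm_apply_apply] at h1
    exact h1
  choose σ hσ using key
  have hne : φ ![1, 0] ≠ 0 := by
    intro h0
    have h1 : (![1, 0] : Fin 2 → K) = 0 := by
      apply φ.injective
      rw [h0, map_zero]
    have h2 := congrFun h1 0
    simp at h2
  have hinj : ∀ {a b : K}, a • φ ![1, 0] = b • φ ![1, 0] → a = b := fun {a b} hab =>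
    smul_left_injective K hne hab
  refine ⟨{ toFun := σ, map_one' := ?_, map_mul' := ?_, map_zero' := ?_, map_add' := ?_ }, hσ⟩
  · apply hinj
    rw [← hσ, one_smul, one_smul]
  · intro a b
    apply hinj
    rw [← hσ, mul_smul, hσ, hσ, mul_smul]
  · apply hinj
    rw [← hσ, zero_smul, zero_smul, map_zero]
  · intro a b
    apply hinj
    rw [← hσ, add_smul, map_add, hσ, hσ, add_smul]

/-- `σ(t) a + t = s` is solvable if `σ` is an involutory automorphism and `σ(s) a = s` -/
theorem one_dim [CharP K 2] (σ : K →+* K) (hσ : ∃ c, σ c ≠ c) (hσ2 : ∀ c, σ (σ c) = c) (a s : K)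
    (h : σ s * a = s) : ∃ t, σ t * a + t = s := by
  obtain ⟨β, hβ⟩ := hσ
  have h2 : (2 : K) = 0 := CharP.cast_eq_zero K 2
  have hγ : σ β + β ≠ 0 := by
    intro h0
    apply hβ
    have h3 : β + β = 0 := by rw [← two_mul, h2, zero_mul]
    exact add_right_cancel (h0.trans h3.symm)
  have hσγ : σ (σ β + β) = σ β + β := by
    rw [map_add, hσ2, add_comm]
  refine ⟨β / (σ β + β) * s, ?_⟩
  rw [map_mul, map_div₀, hσγ]
  have h4 : σ β / (σ β + β) * σ s * a + β / (σ β + β) * s =
      σ β / (σ β + β) * (σ s * a) + β / (σ β + β) * s := by ring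
  rw [h4, h]
  field_simp

/-- an element of `2`-power order of a field of characteristic two is trivial -/
theorem eq_one_of_pow [CharP K 2] {a : K} {k : ℕ} (h : a ^ 2 ^ k = 1) : a = 1 := by
  have h1 : (a - 1) ^ 2 ^ k = 0 := by
    rw [sub_pow_char_pow (p := 2) a 1, h]
    simp
  exact sub_eq_zero.1 (eq_zero_of_pow_eq_zero h1)

/-- `SL₂(K)` is transitive on nonzero vectors -/
theorem exists_to_vec {w : Fin 2 → K} (hw : w ≠ 0) :
    ∃ N : Matrix.SpecialLinearGroup (Fin 2) K, act N ![1, 0] = w := by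
  by_cases h0 : w 0 = 0
  · have h1 : w 1 ≠ 0 := by
      intro h1
      apply hw
      ext i; fin_cases i
      · exact h0
      · exact h1
    have hdet : (!![0, -(w 1)⁻¹; w 1, 0] : Matrix (Fin 2) (Fin 2) K).det = 1 := by
      rw [Matrix.det_fin_two_of]
      field_simp
      simp
    refine ⟨⟨_, hdet⟩, ?_⟩
    have e0 := act_apply_zero ⟨_, hdet⟩ ![1, 0]
    have e1 := act_apply_one ⟨_, hdet⟩ ![1, 0]
    ext i; fin_cases i
    · refine e0.trans ?_
      simp [h0]
    · refine e1.trans ?_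
      simp
  · have hdet : (!![w 0, 0; w 1, (w 0)⁻¹] : Matrix (Fin 2) (Fin 2) K).det = 1 := by
      rw [Matrix.det_fin_two_of]
      field_simp
      simp
    refine ⟨⟨_, hdet⟩, ?_⟩
    have e0 := act_apply_zero ⟨_, hdet⟩ ![1, 0]
    have e1 := act_apply_one ⟨_, hdet⟩ ![1, 0]
    ext i; fin_cases i
    · refine e0.trans ?_
      simp
    · refine e1.trans ?_
      simp

/-- an element of `SL₂(K)` fixing the first basis vector is upper unitriangular -/
theorem eq_U_of_fix {M : Matrix.SpecialLinearGroup (Fin 2) K} (h : act M ![1, 0] = ![1, 0]) :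
    M = U ((M : Matrix (Fin 2) (Fin 2) K) 0 1) := by
  have h0 := congrFun h 0
  have h1 := congrFun h 1
  rw [act_apply_zero] at h0
  rw [act_apply_one] at h1
  simp at h0 h1
  have hd := M.2
  rw [Matrix.det_fin_two, h0, h1] at hd
  simp at hd
  apply Subtype.ext
  ext i j
  fin_cases i <;> fin_cases j <;> simp [U, h0, h1, hd]

end Cfsg.Agent.H302.Hen
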