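import Cfsg.Agent.H302.Hen.Nrm

/-!
# The semilinear action of `T` on `V / C_V(E)`; freeness
-/

set_option autoImplicit false
set_option linter.unusedSectionVars false
set_option linter.style.haveILetI false

namespace Cfsg.Agent.H302.Hen

open Cfsg Cfsg.FusionSystem Cfsg.Agent.H756.HM Cfsg.Agent.H802

variable {Ω : Type*} [Group Ω]

section
variable {S : Subgroup Ω} [Finite S] {F : FusionSystem S} {K : Type} [Field K] [Fintype K]
  {V T : Subgroup Ω} {x : Ω} {c : Conf F K V T x}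

theorem charP_two (c : Conf F K V T x) : CharP K 2 := by
  obtain ⟨p, hp⟩ := CharP.exists K
  have hpp : p.Prime := CharP.char_is_prime K p
  haveI := hp
  haveI : Fact p.Prime := ⟨hpp⟩
  obtain ⟨n, -, hn⟩ := FiniteField.card K p
  have h1 := c.hK
  rw [hn] at h1
  have h2 : p ∣ 2 ^ c.n := by
    rw [← h1]
    exact dvd_pow_self p n.2.ne'
  have h3 : p = 2 := (Nat.prime_dvd_prime_iff_eq hpp Nat.prime_two).1 (hpp.dvd_of_dvd_pow h2)
  rw [← h3]
  exact hp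

theorem add_self (c : Conf F K V T x) (a : K) : a + a = 0 := by
  haveI := charP_two c
  exact CharTwo.add_self_eq_zero a

theorem P_one (d : Nrm c) : d.P 1 = 0 := by
  have h1 := d.P_mul 1 V.one_mem 1 V.one_mem
  rw [mul_one] at h1
  exact add_left_cancel (h1.symm.trans (add_zero _).symm)

theorem P_inv (d : Nrm c) {v : Ω} (hv : v ∈ V) : d.P v⁻¹ = - d.P v := by
  have h1 := d.P_mul v⁻¹ (V.inv_mem hv) v hv
  rw [inv_mul_cancel, P_one] at h1
  exact eq_neg_of_add_eq_zero_left h1.symm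

theorem P_eq_iff (d : Nrm c) {v w : Ω} (hv : v ∈ V) (hw : w ∈ V) :
    d.P v = d.P w ↔ v⁻¹ * w ∈ fixS V c.E := by
  rw [← d.P_ker _ (V.mul_mem (V.inv_mem hv) hw), d.P_mul _ (V.inv_mem hv) _ hw, P_inv d hv]
  constructor
  · intro h
    rw [h, neg_add_cancel]
  · intro h
    exact (neg_add_eq_zero.1 h)

theorem D_le_Z (d : Nrm c) : fixS V c.E ≤ V ⊓ cj x V := by
  intro v hv
  have hV := fixS_le _ hv
  refine ⟨hV, (d.P_Z v hV).1 ?_⟩
  rw [(d.P_ker v hV).2 hv]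
  rfl

theorem conjV (c : Conf F K V T x) {t v : Ω} (ht : t ∈ T) (hv : v ∈ V) : t * v * t⁻¹ ∈ V :=
  conj_mem_of_norm (T_le_norm c ht) hv

theorem conjVx (c : Conf F K V T x) {t v : Ω} (ht : t ∈ T) (hv : v ∈ cj x V) : t * v * t⁻¹ ∈ cj x V := by
  rw [mem_cj] at hv ⊢
  have h1 : x⁻¹ * t * x ∈ T := conj_mem_of_norm' c.x_nor ht
  have h2 := conjV c h1 hv
  have h3 : x⁻¹ * t * x * (x⁻¹ * v * x) * (x⁻¹ * t * x)⁻¹ = x⁻¹ * (t * v * t⁻¹) * x := by group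
  rwa [h3] at h2

theorem conjZ (c : Conf F K V T x) {t v : Ω} (ht : t ∈ T) (hv : v ∈ V ⊓ cj x V) :
    t * v * t⁻¹ ∈ V ⊓ cj x V := ⟨conjV c ht hv.1, conjVx c ht hv.2⟩

/-- `t` acts semilinearly -/
def Semi (d : Nrm c) (t : Ω) (σ : K →+* K) (a b e : K) : Prop :=
  ∀ v ∈ V, d.P (t * v * t⁻¹) 0 = σ (d.P v 0) * a + σ (d.P v 1) * b ∧
    d.P (t * v * t⁻¹) 1 = σ (d.P v 1) * e

theorem exists_semi (d : Nrm c) {t : Ω} (ht : t ∈ T) :
    ∃ (σ : K →+* K) (a b e : K), a ≠ 0 ∧ e ≠ 0 ∧ Semi d t σ a b e := by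
  classical
  have hfinV : Finite V := finite_of_le c.V_le
  choose s hs hPs using d.P_surj
  have wd : ∀ {t' : Ω}, t' ∈ T → ∀ v ∈ V, ∀ w ∈ V, d.P v = d.P w → d.P (t' * v * t'⁻¹) = d.P (t' * w * t'⁻¹) := by
    intro t' ht' v hv w hw h
    rw [P_eq_iff d hv hw] at h
    rw [P_eq_iff d (conjV c ht' hv) (conjV c ht' hw)]
    have := D_conj c ht' h
    have h3 : t' * (v⁻¹ * w) * t'⁻¹ = (t' * v * t'⁻¹)⁻¹ * (t' * w * t'⁻¹) := by group
    rwa [h3] at this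
  let φ0 : (Fin 2 → K) →+ (Fin 2 → K) :=
    AddMonoidHom.mk' (fun u => d.P (t * s u * t⁻¹)) (by
      intro u u'
      have h1 : d.P (s (u + u')) = d.P (s u * s u') := by
        rw [d.P_mul _ (hs u) _ (hs u'), hPs, hPs, hPs]
      rw [wd ht _ (hs _) _ (V.mul_mem (hs u) (hs u')) h1,
        ← d.P_mul _ (conjV c ht (hs u)) _ (conjV c ht (hs u'))]
      congr 1
      group)
  have hφ0 : ∀ v ∈ V, φ0 (d.P v) = d.P (t * v * t⁻¹) := fun v hv => wd ht _ (hs _) _ hv (hPs _)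
  have hinj : Function.Injective φ0 := by
    rw [injective_iff_map_eq_zero]
    intro u hu
    have h1 : d.P (t * s u * t⁻¹) = d.P 1 := by
      rw [P_one]
      exact hu
    have h2 := wd (T.inv_mem ht) _ (conjV c ht (hs u)) _ V.one_mem h1
    have h3 : t⁻¹ * (t * s u * t⁻¹) * t⁻¹⁻¹ = s u := by group
    have h4 : t⁻¹ * 1 * t⁻¹⁻¹ = 1 := by group
    rw [h3, h4, hPs, P_one] at h2
    exact h2
  let φ : (Fin 2 → K) ≃+ (Fin 2 → K) := AddEquiv.ofBijective φ0 ((Finite.injective_iff_bijective).1 hinj)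
  have hφ : ∀ v ∈ V, φ (d.P v) = d.P (t * v * t⁻¹) := hφ0
  obtain ⟨σ, hσ⟩ := semilinear φ (by
    intro M'
    obtain ⟨e', he'⟩ := conj_E c ht (d.ρ.symm M')
    refine ⟨d.ρ e', fun u => ?_⟩
    have h1 : u = d.P (s u) := (hPs u).symm
    have hu := hs u
    have h2 := conjV c ht hu
    have h3 := he' ⟨s u, hu⟩ h2
    have h4 := d.P_E (d.ρ.symm M') ⟨_, h2⟩
    rw [MulEquiv.apply_symm_apply] at h4
    rw [h1, hφ _ hu, ← h4, h3, ← d.P_E e' ⟨s u, hu⟩, hφ _ (((e' : MulAut V) ⟨s u, hu⟩).2)])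
  obtain ⟨v0, hv0, h0⟩ := d.P_surj ![1, 0]
  obtain ⟨v1, hv1, h1⟩ := d.P_surj ![0, 1]
  have h2 : φ ![1, 0] 1 = 0 := by
    rw [← h0, hφ _ hv0]
    refine (d.P_Z _ (conjV c ht hv0)).2 (conjVx c ht ((d.P_Z _ hv0).1 ?_))
    rw [h0]
    simp
  have h3 : φ ![1, 0] 0 ≠ 0 := by
    intro h3
    have h4 : φ ![1, 0] = 0 := by
      ext i; fin_cases i
      · exact h3
      · exact h2
    have h5 := congrFun (φ.injective (h4.trans (map_zero φ).symm)) 0
    simp at h5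
  have h4 : φ ![0, 1] 1 ≠ 0 := by
    rw [← h1, hφ _ hv1]
    intro h5
    have h6 := (d.P_Z _ (conjV c ht hv1)).1 h5
    have h7 := conjVx c (T.inv_mem ht) h6
    have h8 : t⁻¹ * (t * v1 * t⁻¹) * t⁻¹⁻¹ = v1 := by group
    rw [h8] at h7
    have h9 := (d.P_Z _ hv1).2 h7
    rw [h1] at h9
    simp at h9
  refine ⟨σ, φ ![1, 0] 0, φ ![0, 1] 0, φ ![0, 1] 1, h3, h4, fun v hv => ?_⟩
  have h5 : d.P v = (d.P v 0) • ![1, 0] + (d.P v 1) • ![0, 1] := by
    ext i; fin_cases i <;> simp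
  have h6 : d.P (t * v * t⁻¹) = σ (d.P v 0) • φ ![1, 0] + σ (d.P v 1) • φ ![0, 1] := by
    rw [← hφ v hv, ← hσ, ← hσ, ← map_add, ← h5]
  rw [h6]
  constructor
  · simp
  · simp [h2]

/-- elements of `V V^x` act on `V / D` by transvections -/
theorem lin_T0 (d : Nrm c) {g : Ω} (hg : g ∈ V ⊔ cj x V) :
    ∃ b, ∀ v ∈ V, d.P (g * v * g⁻¹) = act (U b) (d.P v) := by
  obtain ⟨u, hu, a, ha, rfl⟩ := (mem_sup_norm ((Vx_le_T c).trans (T_le_norm c))).1 hg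
  obtain ⟨b, hb⟩ := d.A_act a ha
  refine ⟨b, fun v hv => ?_⟩
  rw [← hb v hv]
  have h1 := conjV c (Vx_le_T c ha) hv
  have h2 : u * a * v * (u * a)⁻¹ = a * v * a⁻¹ := by
    have h3 : u * a * v * (u * a)⁻¹ = u * (a * v * a⁻¹) * u⁻¹ := by group
    rw [h3, V_comm c u hu _ h1, mul_inv_cancel_right]
  rw [h2]

theorem sigma_sq (d : Nrm c) {t : Ω} (ht : t ∈ T) {σ : K →+* K} {a b e : K} (h : Semi d t σ a b e)
    (h2 : t ^ 2 ∈ V ⊔ cj x V) : ∀ r, σ (σ r) = r := by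
  obtain ⟨b', hb'⟩ := lin_T0 d h2
  have key : ∀ v ∈ V, σ (σ (d.P v 1)) * (σ e * e) = d.P v 1 := by
    intro v hv
    have h3 := congrFun (hb' v hv) 1
    rw [act_U] at h3
    have h4 : t ^ 2 * v * (t ^ 2)⁻¹ = t * (t * v * t⁻¹) * t⁻¹ := by
      rw [pow_two]
      group
    rw [h4, (h _ (conjV c ht hv)).2, (h v hv).2] at h3
    simp at h3
    rw [← mul_assoc]
    exact h3
  have h1 : σ e * e = 1 := by
    obtain ⟨v, hv, hv1⟩ := d.P_surj ![0, 1]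
    have h3 := key v hv
    rw [hv1] at h3
    simpa using h3
  intro r
  obtain ⟨v, hv, hv1⟩ := d.P_surj ![0, r]
  have h3 := key v hv
  rw [hv1, h1] at h3
  simpa using h3

/-- elements of `T` trivial on `V / D` lie in `V` -/
theorem triv_mem (d : Nrm c) (typ : fixS V c.E = ⊥ ∨ comS V c.E = V) {g : Ω} (hg : g ∈ T)
    (h : ∀ v ∈ V, d.P (g * v * g⁻¹) = d.P v) : g ∈ V := by
  have hcom : ∀ (e : c.E) (v : V), ((((e : MulAut V) v : V)) : Ω) = g⁻¹ * (((e : MulAut V) ⟨g * v * g⁻¹, conjV c hg v.2⟩ : V) : Ω) * g := by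
    intro e v
    obtain ⟨e', he'⟩ := conj_E c hg e
    have h1 : d.ρ e = d.ρ e' := by
      apply act_injective
      intro u
      obtain ⟨w, hw, rfl⟩ := d.P_surj u
      have h2 := he' ⟨w, hw⟩ (conjV c hg hw)
      have h3 := d.P_E e ⟨_, conjV c hg hw⟩
      have h4 := d.P_E e' ⟨w, hw⟩
      rw [h2, h _ (((e' : MulAut V) ⟨w, hw⟩).2), h4] at h3
      have h5 : d.P ((⟨g * w * g⁻¹, conjV c hg hw⟩ : V) : Ω) = d.P w := h w hw
      rw [h5] at h3
      exact h3.symm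
    have h2 : e = e' := d.ρ.injective h1
    subst h2
    rw [he' v (conjV c hg v.2)]
    group
  have hcen : ∀ v ∈ V, g * v * g⁻¹ = v := by
    rcases typ with hD | hW
    · intro v hv
      have h1 := (P_eq_iff d (conjV c hg hv) hv).1 (h v hv)
      rw [hD, Subgroup.mem_bot] at h1
      exact (inv_mul_eq_one.1 h1)
    · intro v hv
      rw [← hW] at hv
      obtain ⟨w, hw, rfl⟩ := hv
      refine Subgroup.closure_induction (p := fun (w : V) _ => g * (w : Ω) * g⁻¹ = w) ?_ ?_ ?_ ?_ hw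
      · rintro _ ⟨v, e, he, rfl⟩
        have h1 := hcom ⟨e, he⟩ v
        -- g v g⁻¹ = v δ with δ ∈ D
        have h2 := (P_eq_iff d v.2 (conjV c hg v.2)).1 (h v v.2).symm
        obtain ⟨h3, h4⟩ := mem_fixS.1 h2
        have h5 : (⟨g * v * g⁻¹, conjV c hg v.2⟩ : V) = v * ⟨(v : Ω)⁻¹ * (g * v * g⁻¹), h3⟩ := by
          apply Subtype.ext
          show g * (v : Ω) * g⁻¹ = v * ((v : Ω)⁻¹ * (g * v * g⁻¹))
          group
        have h6 : e ⟨g * v * g⁻¹, conjV c hg v.2⟩ = e v * ⟨(v : Ω)⁻¹ * (g * v * g⁻¹), h3⟩ := by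
          rw [h5, map_mul, h4 e he]
        have h7 : ((e v : V) : Ω) = g⁻¹ * ((e v : V) * ((v : Ω)⁻¹ * (g * v * g⁻¹))) * g := by
          rw [h6] at h1
          exact h1
        show g * (((v : Ω)⁻¹) * (e v : V)) * g⁻¹ = (v : Ω)⁻¹ * (e v : V)
        have h8 : g * ((e v : V) : Ω) * g⁻¹ = (e v : V) * ((v : Ω)⁻¹ * (g * v * g⁻¹)) := by
          conv_lhs => rw [h7]
          group
        have h9 : g * (((v : Ω)⁻¹) * (e v : V)) * g⁻¹ = (g * (v : Ω) * g⁻¹)⁻¹ * (g * ((e v : V) : Ω) * g⁻¹) := by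
          group
        rw [h9, h8]
        have hc := V_comm c _ (e v).2 _ (V.mul_mem (V.inv_mem v.2) (conjV c hg v.2))
        rw [hc, V_comm c _ (V.inv_mem v.2) _ (conjV c hg v.2)]
        group
      · simp
      · intro a b _ _ ha hb
        show g * ((a : Ω) * b) * g⁻¹ = a * b
        have : g * ((a : Ω) * b) * g⁻¹ = (g * a * g⁻¹) * (g * b * g⁻¹) := by group
        rw [this, ha, hb]
      · intro a _ ha
        show g * ((a : Ω)⁻¹) * g⁻¹ = (a : Ω)⁻¹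
        have : g * ((a : Ω)⁻¹) * g⁻¹ = (g * a * g⁻¹)⁻¹ := by group
        rw [this, ha]
  have h1 : g ∈ centralizerIn S V := by
    refine ⟨T_le_S c hg, Subgroup.mem_centralizer_iff.2 fun v hv => ?_⟩
    have := hcen v hv
    rw [mul_inv_eq_iff_eq_mul] at this
    exact this.symm
  rwa [c.cent] at h1

/-- the elements of `T` acting linearly on `V / D` are those of `V V^x` -/
theorem mem_T0_of_lin (hS : IsPGroup 2 S) (d : Nrm c) (typ : fixS V c.E = ⊥ ∨ comS V c.E = V) {t : Ω} (ht : t ∈ T)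
    {σ : K →+* K} {a b e : K} (h : Semi d t σ a b e) (hσ : ∀ r, σ r = r) : t ∈ V ⊔ cj x V := by
  haveI := charP_two c
  obtain ⟨k, hk⟩ := hS ⟨t, T_le_S c ht⟩
  have hk' : t ^ 2 ^ k = 1 := by
    have := congrArg Subtype.val hk
    simpa using this
  have hpow : ∀ m : ℕ, ∀ v ∈ V, t ^ m * v * (t ^ m)⁻¹ ∈ V ∧ d.P (t ^ m * v * (t ^ m)⁻¹) 1 = d.P v 1 * e ^ m ∧
      (d.P v 1 = 0 → d.P (t ^ m * v * (t ^ m)⁻¹) 0 = d.P v 0 * a ^ m) := by
    intro m
    induction m with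
    | zero =>
      intro v hv
      simp [hv]
    | succ m ih =>
      intro v hv
      obtain ⟨h1, h2, h3⟩ := ih v hv
      have h4 : t ^ (m + 1) * v * (t ^ (m + 1))⁻¹ = t * (t ^ m * v * (t ^ m)⁻¹) * t⁻¹ := by
        rw [pow_succ' t m]
        group
      rw [h4]
      refine ⟨conjV c ht h1, ?_, fun h0 => ?_⟩
      · rw [(h _ h1).2, hσ, h2]
        ring
      · rw [(h _ h1).1, hσ, hσ, h3 h0, h2, h0]
        ring
  have ha : a = 1 := by
    obtain ⟨v, hv, hv1⟩ := d.P_surj ![1, 0]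
    have h1 := (hpow (2 ^ k) v hv).2.2 (by rw [hv1]; simp)
    rw [hk'] at h1
    simp [hv1] at h1
    exact eq_one_of_pow h1.symm
  have he : e = 1 := by
    obtain ⟨v, hv, hv1⟩ := d.P_surj ![0, 1]
    have h1 := (hpow (2 ^ k) v hv).2.1
    rw [hk'] at h1
    simp [hv1] at h1
    exact eq_one_of_pow h1.symm
  obtain ⟨g, hg, hgb⟩ := d.A_surj b
  have h1 : ∀ v ∈ V, d.P (g * v * g⁻¹) = d.P (t * v * t⁻¹) := by
    intro v hv
    rw [hgb v hv, act_U]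
    ext i; fin_cases i
    · show d.P v 0 + b * d.P v 1 = d.P (t * v * t⁻¹) 0
      rw [(h v hv).1, hσ, hσ, ha]
      ring
    · show d.P v 1 = d.P (t * v * t⁻¹) 1
      rw [(h v hv).2, hσ, he, mul_one]
  have hgT := Vx_le_T c hg
  have h2 : g⁻¹ * t ∈ V := by
    apply triv_mem d typ (T.mul_mem (T.inv_mem hgT) ht)
    intro v hv
    have h3 := h1 (g⁻¹ * (t * v * t⁻¹) * g) (by
      have := conjV c (T.inv_mem hgT) (conjV c ht hv)
      simpa using this)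
    have h4 : g * (g⁻¹ * (t * v * t⁻¹) * g) * g⁻¹ = t * v * t⁻¹ := by group
    rw [h4] at h3
    -- h3 : P (t v t⁻¹) = P (t (g⁻¹ t v t⁻¹ g) t⁻¹)
    have h5 : g⁻¹ * t * v * (g⁻¹ * t)⁻¹ = g⁻¹ * (t * v * t⁻¹) * g := by group
    rw [h5]
    have h6 : g⁻¹ * (t * v * t⁻¹) * g ∈ V := by
      have := conjV c (T.inv_mem hgT) (conjV c ht hv)
      simpa using this
    have h7 := (P_eq_iff d (conjV c ht hv) (conjV c ht h6)).1 h3
    have h8 := D_conj c (T.inv_mem ht) h7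
    have h9 : t⁻¹ * ((t * v * t⁻¹)⁻¹ * (t * (g⁻¹ * (t * v * t⁻¹) * g) * t⁻¹)) * t⁻¹⁻¹ =
        v⁻¹ * (g⁻¹ * (t * v * t⁻¹) * g) := by group
    rw [h9] at h8
    exact ((P_eq_iff d hv h6).2 h8).symm
  have h3 : t = g * (g⁻¹ * t) := by group
  rw [h3]
  exact (V ⊔ cj x V).mul_mem (Subgroup.mem_sup_right hg) (Subgroup.mem_sup_left h2)

end

end Cfsg.Agent.H302.Hen
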